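import Mathlib
import Cfsg.Prelude.Def_Local
import Cfsg.Agent.S0028
import Cfsg.Agent.Lib.Helper9.FixCoset
import Cfsg.Agent.Lib.Helper19.Cores
import Cfsg.Agent.Lib.Helper5.PCore

set_option autoImplicit false

namespace Cfsg.Agent.Lib.Helper13

open scoped commutatorElement

/-- Let `H` be `p`-constrained (in the quotient form), `x ∈ H` with `x ^ p = 1`, and `D` a `p'`-subgroup of
`C_H(x)` normalized by `C_H(x)`.  Then `D ≤ O_{p'}(H)`. -/
theorem le_pPrimeCore_of_normal_in_centralizer {H : Type*} [Group H] [Finite H] (p : ℕ) [Fact p.Prime]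
    (hcon : Subgroup.centralizer (Cfsg.pCore p (H ⧸ Cfsg.pPrimeCore p H) : Set (H ⧸ Cfsg.pPrimeCore p H))
      ≤ Cfsg.pCore p (H ⧸ Cfsg.pPrimeCore p H))
    (x : H) (hx : x ^ p = 1) (D : Subgroup H) (hDx : ∀ d ∈ D, x * d = d * x)
    (hD : (Nat.card D).Coprime p)
    (hnorm : ∀ h : H, x * h = h * x → ∀ d ∈ D, h * d * h⁻¹ ∈ D) :
    D ≤ Cfsg.pPrimeCore p H := by
  classical
  set N := Cfsg.pPrimeCore p H with hN
  set π := QuotientGroup.mk' N with hπ
  set R := Cfsg.pCore p (H ⧸ N) with hR
  have hRn : R.Normal := Cfsg.pCore_normal p _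
  have hRp : IsPGroup p R := Cfsg.Agent.Lib.Helper5.pCore_isPGroup
  have hNcop : (Nat.card N).Coprime p := Cfsg.Agent.Lib.Helper5.pPrimeCore_coprime
  have hDbar : (Nat.card (D.map π)).Coprime p :=
    Nat.Coprime.coprime_dvd_left (Subgroup.card_map_dvd D π) hD
  have hdisj : R ⊓ D.map π = ⊥ := by
    obtain ⟨k, hk⟩ := IsPGroup.iff_card.mp hRp
    have : (Nat.card R).Coprime (Nat.card (D.map π)) := by
      rw [hk]; exact (Nat.Coprime.pow_right k hDbar).symm
    exact (Subgroup.disjoint_of_coprime_natCard this).eq_bot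
  have key : D.map π ≤ Subgroup.centralizer (R : Set (H ⧸ N)) := by
    apply Cfsg.Agent.S0028.result p ((Subgroup.zpowers x).map π) (D.map π) R
    · apply IsPGroup.map
      rintro ⟨z, hz⟩
      obtain ⟨k, rfl⟩ := Subgroup.mem_zpowers_iff.mp hz
      refine ⟨1, ?_⟩
      apply Subtype.ext
      change (x ^ k) ^ (p ^ 1) = 1
      rw [pow_one, ← zpow_natCast, ← zpow_mul, mul_comm, zpow_mul, zpow_natCast, hx, one_zpow]
    · exact hDbar
    · exact hRp
    · rw [Subgroup.map_le_iff_le_comap, Subgroup.zpowers_le]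
      change π x ∈ Subgroup.centralizer ((D.map π : Subgroup (H ⧸ N)) : Set (H ⧸ N))
      rw [Subgroup.mem_centralizer_iff]
      rintro _ ⟨d, hd, rfl⟩
      rw [← map_mul, ← map_mul, hDx d hd]
    · rw [Subgroup.normalizer_eq_top]; exact le_top
    · rw [Subgroup.normalizer_eq_top]; exact le_top
    · rintro rb ⟨hrR, hrx⟩
      obtain ⟨r, rfl⟩ := QuotientGroup.mk'_surjective N rb
      have hrx' : π x * π r = π r * π x :=
        (Subgroup.mem_centralizer_iff.mp hrx) (π x) ⟨x, Subgroup.mem_zpowers x, rfl⟩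
      obtain ⟨y, -, hy1, hy2⟩ := Cfsg.Agent.Lib.Helper9.exists_fixed_in_coset (p := p) ⊤ N x r hx
        (fun _ _ => trivial) trivial (by
          intro y hy
          have h1 : π y = π r := by
            have : π (r⁻¹ * y) = 1 := (QuotientGroup.eq_one_iff _).mpr hy
            rw [map_mul, map_inv, inv_mul_eq_one] at this
            exact this.symm
          apply (QuotientGroup.eq_one_iff _).mp
          change π (r⁻¹ * (x * y * x⁻¹)) = 1
          rw [map_mul, map_mul, map_mul, map_inv, map_inv, h1, hrx', mul_inv_cancel_right,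
            inv_mul_cancel]) (by
          rw [top_inf_eq]
          exact fun h => (Nat.Prime.coprime_iff_not_dvd Fact.out).mp hNcop.symm h)
      have hyr : π y = π r := by
        have : π (r⁻¹ * y) = 1 := (QuotientGroup.eq_one_iff _).mpr hy1
        rw [map_mul, map_inv, inv_mul_eq_one] at this
        exact this.symm
      have hxy : x * y = y * x := by
        calc x * y = (x * y * x⁻¹) * x := by group
          _ = y * x := by rw [hy2]
      rw [Subgroup.mem_centralizer_iff]
      rintro _ ⟨d, hd, rfl⟩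
      have h1 : ⁅y, d⁆ ∈ D := by
        rw [commutatorElement_def]
        exact D.mul_mem (hnorm y hxy d hd) (D.inv_mem hd)
      have h2 : π ⁅y, d⁆ ∈ R := by
        rw [map_commutatorElement, hyr, commutatorElement_def, mul_assoc, mul_assoc]
        rw [← mul_assoc (π d)]
        exact R.mul_mem hrR (hRn.conj_mem _ (R.inv_mem hrR) _)
      have h3 : π ⁅y, d⁆ ∈ R ⊓ D.map π := ⟨h2, ⟨_, h1, rfl⟩⟩
      rw [hdisj, Subgroup.mem_bot, map_commutatorElement, hyr,
        commutatorElement_eq_one_iff_mul_comm] at h3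
      exact h3.symm
  have hbot : D.map π ≤ ⊥ := by
    rw [← hdisj]
    exact le_inf (key.trans hcon) le_rfl
  intro d hd
  have : π d ∈ (⊥ : Subgroup (H ⧸ N)) := hbot ⟨d, hd, rfl⟩
  exact (QuotientGroup.eq_one_iff d).mp (Subgroup.mem_bot.mp this)

/-- the quotient form of `p`-constraint holds in solvable groups -/
theorem constrained_of_solvable (H : Type*) [Group H] [Finite H] (p : ℕ) [Fact p.Prime]
    [Group.IsSolvable H] :
    Subgroup.centralizer (Cfsg.pCore p (H ⧸ Cfsg.pPrimeCore p H) : Set (H ⧸ Cfsg.pPrimeCore p H))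
      ≤ Cfsg.pCore p (H ⧸ Cfsg.pPrimeCore p H) := by
  have : Group.IsSolvable (H ⧸ Cfsg.pPrimeCore p H) :=
    Group.isSolvable_of_surjective (QuotientGroup.mk'_surjective (Cfsg.pPrimeCore p H))
  exact Cfsg.Agent.Lib.Helper19.centralizer_pCore_le_of_solvable p _
    (Cfsg.Agent.Lib.Helper19.pPrimeCore_quotient_eq_bot p H)

theorem centralizerPPrimeCore_le {G : Type*} [Group G] (p : ℕ) (x : G) :
    Cfsg.centralizerPPrimeCore p x ≤ Subgroup.centralizer {x} :=
  Subgroup.map_subtype_le _

/-- Half of balance: if `C_G(y)` is `p`-constrained, `x ^ p = 1` and `x y = y x` then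
`O_{p'}(C_G(x)) ∩ C_G(y) ≤ O_{p'}(C_G(y))`. -/
theorem balance_half {G : Type*} [Group G] [Finite G] (p : ℕ) [Fact p.Prime] (x y : G)
    (hx : x ^ p = 1) (hxy : x * y = y * x)
    (hcon : Subgroup.centralizer (Cfsg.pCore p (↥(Subgroup.centralizer ({y} : Set G)) ⧸
        Cfsg.pPrimeCore p ↥(Subgroup.centralizer ({y} : Set G))) : Set _)
      ≤ Cfsg.pCore p (↥(Subgroup.centralizer ({y} : Set G)) ⧸
        Cfsg.pPrimeCore p ↥(Subgroup.centralizer ({y} : Set G)))) :
    Cfsg.centralizerPPrimeCore p x ⊓ Subgroup.centralizer {y} ≤ Cfsg.centralizerPPrimeCore p y := by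
  classical
  set H := Subgroup.centralizer ({y} : Set G) with hH
  have hxH : x ∈ H := by
    rw [hH, Subgroup.mem_centralizer_singleton_iff]; exact hxy
  set D := Cfsg.centralizerPPrimeCore p x ⊓ H with hD
  have hDH : D ≤ H := inf_le_right
  have key : D.subgroupOf H ≤ Cfsg.pPrimeCore p H := by
    apply le_pPrimeCore_of_normal_in_centralizer p hcon ⟨x, hxH⟩
    · apply Subtype.ext; exact hx
    · rintro ⟨d, hdH⟩ hd
      apply Subtype.ext
      change x * d = d * x
      have hd' : d ∈ D := hd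
      have := centralizerPPrimeCore_le p x hd'.1
      rw [Subgroup.mem_centralizer_singleton_iff] at this
      exact this.symm
    · rw [Nat.card_congr (Subgroup.subgroupOfEquivOfLe hDH).toEquiv]
      have h1 : Nat.card D ∣ Nat.card (Cfsg.centralizerPPrimeCore p x) :=
        Subgroup.card_dvd_of_le inf_le_left
      have h2 : Nat.card (Cfsg.centralizerPPrimeCore p x) =
          Nat.card (Cfsg.pPrimeCore p ↥(Subgroup.centralizer ({x} : Set G))) :=
        Subgroup.card_map_of_injective (Subgroup.subtype_injective _)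
      rw [h2] at h1
      exact Nat.Coprime.coprime_dvd_left h1 Cfsg.Agent.Lib.Helper5.pPrimeCore_coprime
    · rintro ⟨h, hhH⟩ hxh ⟨d, hdH⟩ hd
      have hxh' : x * h = h * x := congrArg Subtype.val hxh
      have hd' : d ∈ D := hd
      change h * d * h⁻¹ ∈ D
      refine ⟨?_, H.mul_mem (H.mul_mem hhH hdH) (H.inv_mem hhH)⟩
      obtain ⟨e, he, rfl⟩ := hd'.1
      have hhx : h ∈ Subgroup.centralizer ({x} : Set G) := by
        rw [Subgroup.mem_centralizer_singleton_iff]; exact hxh'.symm
      have hn : (Cfsg.pPrimeCore p ↥(Subgroup.centralizer ({x} : Set G))).Normal := inferInstance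
      exact ⟨⟨h, hhx⟩ * e * ⟨h, hhx⟩⁻¹, hn.conj_mem e he _, rfl⟩
  intro d hd
  exact ⟨⟨d, hDH hd⟩, key hd, rfl⟩

end Cfsg.Agent.Lib.Helper13
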