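import Mathlib

set_option autoImplicit false

open scoped IsMulCommutative

namespace Cfsg.Agent.Lib.Helper13

/-- the fixed points of the whole group form a direct factor of the fixed points of a subgroup of
index prime to `p`, in a normal abelian `p`-subgroup -/
theorem exists_trace_complement {X : Type*} [Group X] [Finite X] {p : ℕ} [Fact p.Prime]
    (U M : Subgroup X) [hUn : U.Normal] (hUp : IsPGroup p U)
    (hUab : ∀ a ∈ U, ∀ b ∈ U, a * b = b * a) (hM : ¬ p ∣ M.index) :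
    ∃ K : Subgroup X, K ≤ U ⊓ Subgroup.centralizer (M : Set X) ∧
      (U ⊓ Subgroup.center X) ⊓ K = ⊥ ∧
      (U ⊓ Subgroup.center X) ⊔ K = U ⊓ Subgroup.centralizer (M : Set X) := by
  classical
  have : IsMulCommutative ↥U := ⟨⟨fun a b => Subtype.ext (hUab a a.2 b b.2)⟩⟩
  let cn : X →* MulAut ↥U := MulAut.conjNormal
  have hcn : ∀ (k : X) (u : ↥U), ((cn k u : ↥U) : X) = k * u * k⁻¹ := fun k u =>
    MulAut.conjNormal_apply k u
  have : Fintype (X ⧸ M) := Fintype.ofFinite _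
  let τ : ↥U →* ↥U := ∏ q : X ⧸ M, (cn q.out).toMonoidHom
  have hτ : ∀ u : ↥U, τ u = ∏ q : X ⧸ M, cn q.out u := by
    intro u
    show (∏ q : X ⧸ M, (cn q.out).toMonoidHom) u = _
    rw [MonoidHom.finsetProd_apply]
    rfl
  -- invariance
  have hinv : ∀ u : ↥U, (u : X) ∈ Subgroup.centralizer (M : Set X) → ∀ g : X, cn g (τ u) = τ u := by
    intro u hu g
    have hxm : ∀ m ∈ M, cn m u = u := by
      intro m hm
      apply Subtype.ext
      rw [hcn]
      have := (Subgroup.mem_centralizer_iff.mp hu) m hm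
      rw [this]; group
    have hxq : ∀ t : X, cn (t : X ⧸ M).out u = cn t u := by
      intro t
      obtain ⟨h, hh⟩ := QuotientGroup.mk_out_eq_mul M t
      rw [hh, map_mul, MulAut.mul_apply, hxm _ h.2]
    have hxq2 : ∀ (g : X) (q : X ⧸ M), cn (g • q).out u = cn g (cn q.out u) := by
      intro g q
      have h1 : g • q = ((g * q.out : X) : X ⧸ M) := by
        conv_lhs => rw [← Quotient.out_eq' q]
        rfl
      rw [h1, hxq, map_mul, MulAut.mul_apply]
    rw [hτ, map_prod]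
    simp only [← hxq2]
    exact Equiv.prod_comp (MulAction.toPerm g) (fun q : X ⧸ M => cn q.out u)
  have hcen : ∀ u : ↥U, (u : X) ∈ Subgroup.center X → τ u = u ^ M.index := by
    intro u hu
    have h1 : ∀ g : X, cn g u = u := by
      intro g
      apply Subtype.ext
      rw [hcn, (Subgroup.mem_center_iff.mp hu) g]
      group
    rw [hτ]
    simp only [h1]
    rw [Finset.prod_const, Finset.card_univ, Subgroup.index_eq_card, Nat.card_eq_fintype_card]
  have hτcen : ∀ u : ↥U, (u : X) ∈ Subgroup.centralizer (M : Set X) →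
      ((τ u : ↥U) : X) ∈ Subgroup.center X := by
    intro u hu
    rw [Subgroup.mem_center_iff]
    intro g
    have := congrArg Subtype.val (hinv u hu g)
    rw [hcn] at this
    calc g * ((τ u : ↥U) : X) = (g * (τ u : ↥U) * g⁻¹) * g := by group
      _ = (τ u : ↥U) * g := by rw [this]
  obtain ⟨e, he⟩ := IsPGroup.iff_card.mp hUp
  have hcop : IsCoprime (M.index : ℤ) ((p ^ e : ℕ) : ℤ) := by
    rw [Nat.isCoprime_iff_coprime]
    exact Nat.Coprime.pow_right e
      ((Nat.Coprime.symm ((Nat.Prime.coprime_iff_not_dvd Fact.out).mpr hM)))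
  obtain ⟨a, b, hab⟩ := hcop
  have hpow : ∀ u : ↥U, u ^ ((p ^ e : ℕ) : ℤ) = 1 := by
    intro u
    rw [zpow_natCast, ← he]
    exact pow_card_eq_one'
  have hroot : ∀ u : ↥U, (u ^ a) ^ M.index = u := by
    intro u
    rw [← zpow_natCast, ← zpow_mul]
    have : a * (M.index : ℤ) = 1 - b * ((p ^ e : ℕ) : ℤ) := by linarith
    rw [this, zpow_sub, zpow_one, mul_comm b, zpow_mul, hpow, one_zpow, inv_one, mul_one]
  refine ⟨(U ⊓ Subgroup.centralizer (M : Set X)) ⊓ τ.ker.map U.subtype, inf_le_left, ?_, ?_⟩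
  · rw [eq_bot_iff]
    rintro x ⟨⟨hxU, hxc⟩, -, ⟨u, hu, rfl⟩⟩
    have h1 : τ u = 1 := hu
    rw [hcen u hxc] at h1
    have h2 := hroot u
    rw [← zpow_natCast, ← zpow_mul, mul_comm, zpow_mul, zpow_natCast, h1, one_zpow] at h2
    rw [Subgroup.mem_bot, ← h2]
    rfl
  · apply le_antisymm
    · exact sup_le (inf_le_inf_left _ (Subgroup.center_le_centralizer _)) inf_le_left
    · rintro z ⟨hzU, hzM⟩
      set u : ↥U := ⟨z, hzU⟩ with hu
      set w : ↥U := (τ u) ^ a with hw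
      have hwc : (w : X) ∈ Subgroup.center X := by
        rw [hw, Subgroup.coe_zpow]
        exact Subgroup.zpow_mem _ (hτcen u hzM) a
      have hτw : τ w = τ u := by
        rw [hcen w hwc, hw, hroot]
      have e1 : z = (w : X) * ((w⁻¹ * u : ↥U) : X) := by
        rw [Subgroup.coe_mul, Subgroup.coe_inv]
        simp [hu]
      rw [e1]
      refine Subgroup.mul_mem_sup ⟨w.2, hwc⟩ ⟨⟨(w⁻¹ * u).2, ?_⟩, ⟨w⁻¹ * u, ?_, rfl⟩⟩
      · rw [Subgroup.coe_mul, Subgroup.coe_inv]
        exact Subgroup.mul_mem _ (Subgroup.inv_mem _ (Subgroup.center_le_centralizer _ hwc)) hzM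
      · show τ (w⁻¹ * u) = 1
        rw [map_mul, map_inv, hτw, inv_mul_cancel]

/-- relative form -/
theorem exists_center_complement {G : Type*} [Group G] [Finite G] {p : ℕ} [Fact p.Prime]
    (S N₁ R : Subgroup G) (hS : IsPGroup p S) (hSi : ¬ p ∣ S.relIndex N₁) (hSN : S ≤ N₁) (hRS : R ≤ S)
    (hN : N₁ ≤ Subgroup.normalizer (R : Set G))
    (hZR : S ⊓ Subgroup.centralizer (S : Set G) ≤ R) :
    ∃ K : Subgroup G, K ≤ S ⊓ Subgroup.centralizer (S : Set G) ∧
      (S ⊓ Subgroup.centralizer (N₁ : Set G)) ⊓ K = ⊥ ∧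
      (S ⊓ Subgroup.centralizer (N₁ : Set G)) ⊔ K = S ⊓ Subgroup.centralizer (S : Set G) := by
  set V := R ⊓ Subgroup.centralizer (R : Set G) with hV
  have hVS : V ≤ S := inf_le_left.trans hRS
  have hVN : V ≤ N₁ := hVS.trans hSN
  have hZV : S ⊓ Subgroup.centralizer (S : Set G) ≤ V :=
    le_inf hZR (inf_le_right.trans (Subgroup.centralizer_le hRS))
  have hNV : N₁ ≤ Subgroup.normalizer (V : Set G) := by
    intro n hn
    have hnR := hN hn
    rw [Subgroup.mem_normalizer_iff] at hnR ⊢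
    have key : ∀ (m : G), (∀ h, h ∈ R ↔ m * h * m⁻¹ ∈ R) → ∀ x ∈ V, m * x * m⁻¹ ∈ V := by
      intro m hm x hx
      refine Subgroup.mem_inf.mpr ⟨(hm x).mp hx.1, ?_⟩
      rw [Subgroup.mem_centralizer_iff]
      intro r hr
      have hr' : m⁻¹ * r * m ∈ R := by
        rw [hm]
        have e : m * (m⁻¹ * r * m) * m⁻¹ = r := by group
        rw [e]
        exact hr
      have := (Subgroup.mem_centralizer_iff.mp hx.2) _ hr'
      calc r * (m * x * m⁻¹) = m * ((m⁻¹ * r * m) * x) * m⁻¹ := by group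
        _ = m * (x * (m⁻¹ * r * m)) * m⁻¹ := by rw [this]
        _ = m * x * m⁻¹ * r := by group
    intro x
    refine ⟨key n hnR x, fun hx => ?_⟩
    have h2 := key n⁻¹ (fun h => by
      rw [hnR (n⁻¹ * h * n⁻¹⁻¹)]
      have : n * (n⁻¹ * h * n⁻¹⁻¹) * n⁻¹ = h := by group
      rw [this]) _ hx
    convert h2 using 1
    group
  have hUn : (V.subgroupOf N₁).Normal := (Subgroup.normal_subgroupOf_iff_le_normalizer hVN).mpr hNV
  obtain ⟨K, hK1, hK2, hK3⟩ := exists_trace_complement (p := p) (V.subgroupOf N₁) (S.subgroupOf N₁)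
    ((hS.to_le hVS).comap_subtype)
    (fun a ha b hb => Subtype.ext ((Subgroup.mem_centralizer_iff.mp
      (Subgroup.mem_subgroupOf.mp hb).2) a (Subgroup.mem_subgroupOf.mp ha).1)) hSi
  have e1 : (V.subgroupOf N₁ ⊓ Subgroup.centralizer ((S.subgroupOf N₁ : Subgroup ↥N₁) : Set ↥N₁)).map
      N₁.subtype = S ⊓ Subgroup.centralizer (S : Set G) := by
    ext x
    constructor
    · rintro ⟨y, hy, rfl⟩
      obtain ⟨hy1, hy2⟩ := Subgroup.mem_inf.mp hy
      refine Subgroup.mem_inf.mpr ⟨hVS (Subgroup.mem_subgroupOf.mp hy1), ?_⟩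
      rw [Subgroup.mem_centralizer_iff]
      intro s hs
      exact congrArg Subtype.val ((Subgroup.mem_centralizer_iff.mp hy2) ⟨s, hSN hs⟩
        (Subgroup.mem_subgroupOf.mpr hs))
    · intro hx
      refine ⟨⟨x, hSN hx.1⟩, Subgroup.mem_inf.mpr ⟨Subgroup.mem_subgroupOf.mpr (hZV hx), ?_⟩, rfl⟩
      rw [Subgroup.mem_centralizer_iff]
      intro s hs
      exact Subtype.ext ((Subgroup.mem_centralizer_iff.mp hx.2) s (Subgroup.mem_subgroupOf.mp hs))
  have e2 : (V.subgroupOf N₁ ⊓ Subgroup.center ↥N₁).map N₁.subtype =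
      S ⊓ Subgroup.centralizer (N₁ : Set G) := by
    ext x
    constructor
    · rintro ⟨y, hy, rfl⟩
      obtain ⟨hy1, hy2⟩ := Subgroup.mem_inf.mp hy
      refine Subgroup.mem_inf.mpr ⟨hVS (Subgroup.mem_subgroupOf.mp hy1), ?_⟩
      rw [Subgroup.mem_centralizer_iff]
      intro s hs
      exact congrArg Subtype.val ((Subgroup.mem_center_iff.mp hy2) ⟨s, hs⟩)
    · intro hx
      refine ⟨⟨x, hSN hx.1⟩, Subgroup.mem_inf.mpr ⟨Subgroup.mem_subgroupOf.mpr
        (hZV (Subgroup.mem_inf.mpr ⟨hx.1, Subgroup.centralizer_le hSN hx.2⟩)), ?_⟩, rfl⟩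
      rw [Subgroup.mem_center_iff]
      intro s
      exact Subtype.ext ((Subgroup.mem_centralizer_iff.mp hx.2) s s.2)
  refine ⟨K.map N₁.subtype, ?_, ?_, ?_⟩
  · rw [← e1]; exact Subgroup.map_mono hK1
  · rw [← e2, ← Subgroup.map_inf _ _ _ N₁.subtype_injective, hK2, Subgroup.map_bot]
  · rw [← e2, ← Subgroup.map_sup, hK3, e1]

end Cfsg.Agent.Lib.Helper13
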