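import Cfsg.Agent.Lib.Helper13.KInfApps
import Cfsg.Agent.Lib.Helper13.WCFrat

set_option autoImplicit false

namespace Cfsg.Agent.Lib.Helper13

universe u

variable {G : Type u} [Group G] [Finite G] {p : ℕ} [Fact p.Prime]

theorem kInfLower_center_le (P : Subgroup G) (hP : IsPGroup p P) :
    P ⊓ Subgroup.centralizer (P : Set G) ≤ Cfsg.inducedFunctor Cfsg.kInfLower P := by
  intro x hx
  obtain ⟨hx1, hx2⟩ := Subgroup.mem_inf.mp hx
  obtain ⟨h1, h2, _, _⟩ := Cfsg.Agent.S1978.result hP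
  refine ⟨⟨x, hx1⟩, h1 (h2 ?_), rfl⟩
  rw [Subgroup.mem_center_iff]
  intro y
  exact Subtype.ext ((Subgroup.mem_centralizer_iff.mp hx2) y y.2)

theorem kInfLower_quadratic (H T : Subgroup G) (hTH : T ≤ H) (hT : IsPGroup p T)
    (hTi : ¬ p ∣ T.relIndex H)
    (hn : ¬ H ≤ Subgroup.normalizer ((Cfsg.inducedFunctor Cfsg.kInfLower T : Subgroup G) : Set G)) :
    ∃ g : G, g ∈ T ∧ g ∉ Cfsg.pCoreOf p H ∧
      ⁅⁅Cfsg.pCoreOf p H ⊓ Subgroup.centralizer ((Cfsg.pCoreOf p H : Subgroup G) : Set G),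
        Subgroup.zpowers g⁆, Subgroup.zpowers g⁆ = ⊥ := by
  let T' : Sylow p H := (hT.comap_subtype : IsPGroup p (T.subgroupOf H)).toSylow hTi
  have hT' : (T' : Subgroup ↥H) = T.subgroupOf H := rfl
  have hmap : Cfsg.inducedFunctor (G := G) Cfsg.kInfLower T =
      (Cfsg.inducedFunctor (G := ↥H) Cfsg.kInfLower (T' : Subgroup ↥H)).map H.subtype := by
    rw [← induced_map (kInfLower_isChar p) H.subtype _ T'.2
      (fun x _ hx => Subtype.ext hx), hT', Subgroup.map_subgroupOf_eq_of_le hTH]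
  obtain ⟨g, hgT, hgP, -, hq⟩ := kInf_small_action T' (Or.inl (by
    intro hnorm
    apply hn
    rw [hmap, ← Subgroup.normal_subgroupOf_iff_le_normalizer (Subgroup.map_subtype_le _),
      subgroupOf_map_subtype_self]
    exact hnorm))
  refine ⟨g, Subgroup.mem_subgroupOf.mp hgT, ?_, ?_⟩
  · rw [Cfsg.Agent.Lib.Helper17.mem_pCoreOf_iff g.2]
    exact hgP
  · have h1 := congrArg (Subgroup.map H.subtype) hq
    rw [Subgroup.map_bot, Subgroup.map_commutator, Subgroup.map_commutator,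
      map_inf_centralizer _ H.subtype_injective, MonoidHom.map_zpowers] at h1
    exact h1

end Cfsg.Agent.Lib.Helper13
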