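import Cfsg.Agent.Lib.Helper13.WCKInf
import Cfsg.Agent.Lib.Helper13.WCElt

set_option autoImplicit false

namespace Cfsg.Agent.Lib.Helper13

/-- control of weak closure of elements, for an arbitrary Sylow subgroup of an arbitrary subgroup -/
theorem weak_closure_elt {G : Type*} [Group G] [Finite G] {p : ℕ} [Fact p.Prime]
    (W : Subgroup G → Subgroup G) (hW : Cfsg.IsConjugacyFunctor p W)
    (hWZ : ∀ P : Subgroup G, IsPGroup p ↥P → P ⊓ Subgroup.centralizer ((P : Subgroup G) : Set G) ≤ W P)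
    (hloc : ∀ (H T : Subgroup G), T ≤ H → IsPGroup p ↥T → ¬ p ∣ (T).relIndex (H) →
      ¬ H ≤ Subgroup.normalizer ((W T : Subgroup G) : Set G) → ∃ g : G, g ∈ T ∧
        g ∉ Cfsg.pCoreOf p H ∧ ∀ U V : Subgroup ↥H, Cfsg.IsChiefFactor U V →
          U.map H.subtype ≤ Cfsg.pCoreOf p H ⊓
            Subgroup.centralizer ((Cfsg.pCoreOf p H : Subgroup G) : Set G) →
          Cfsg.iterCommutator (U.map H.subtype) (Subgroup.zpowers g) (p - 1) ≤ V.map H.subtype)
    (H T : Subgroup G) (hTH : T ≤ H) (hTp : IsPGroup p T) (hTi : ¬ p ∣ T.relIndex H) :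
    ∀ x ∈ T ⊓ Subgroup.centralizer ((H ⊓ Subgroup.normalizer ((W T : Subgroup G) : Set G) :
      Subgroup G) : Set G), ∀ h ∈ H, h * x * h⁻¹ ∈ T → h * x * h⁻¹ = x := by
  intro x hx h hh hxh
  obtain ⟨hx1, hx2⟩ := Subgroup.mem_inf.mp hx
  have hTN : T ≤ H ⊓ Subgroup.normalizer ((W T : Subgroup G) : Set G) :=
    le_inf hTH (Subgroup.le_normalizer.trans (normalizer_le_normalizer_functor hW hTp))
  have hxZ : x ∈ T ⊓ Subgroup.centralizer (T : Set G) :=
    Subgroup.mem_inf.mpr ⟨hx1, Subgroup.centralizer_le hTN hx2⟩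
  have h1 := weak_closure_LG W hW hWZ (fun S => S ⊓ Subgroup.centralizer (S : Set G))
    (fun S => le_rfl)
    (fun S S₁ h1 h2 => le_inf h2 (inf_le_right.trans (Subgroup.centralizer_le h1)))
    (Subgroup.zpowers x) (Subgroup.centralizer (Subgroup.zpowers x : Set G))
    (Cfsg.Agent.Lib.Helper17.centralizer_le_normalizer' _)
    (fun H S hSH hS hSi hAζ hAR hAN hL => loc_elt W hloc x H S hSH hS hSi
      (hAζ (Subgroup.mem_zpowers x)) (hAR (Subgroup.mem_zpowers x)) hAN hL)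
    H T hTH hTp hTi (Subgroup.zpowers_le.mpr hxZ)
    (Subgroup.le_centralizer_iff.mp (Subgroup.zpowers_le.mpr hx2)) h⁻¹ (H.inv_mem hh) (by
      rw [← map_conj_eq_cj, MonoidHom.map_zpowers, Subgroup.zpowers_le]
      exact hxh)
  have h2 := mem_centralizer_zpowers.mp h1
  calc h * x * h⁻¹ = h * (x * h⁻¹) := by group
    _ = h * (h⁻¹ * x) := by rw [h2]
    _ = x := by group

universe u

theorem kInfLower_weak_closure {G : Type u} [Group G] [Finite G] {p : ℕ} [Fact p.Prime] (hp : p ≠ 2)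
    (S : Sylow p G) :
    ∀ x ∈ (S : Subgroup G) ⊓ Subgroup.centralizer ((Subgroup.normalizer
      ((Cfsg.inducedFunctor Cfsg.kInfLower (S : Subgroup G) : Subgroup G) : Set G) : Subgroup G) : Set G),
      ∀ g : G, g * x * g⁻¹ ∈ (S : Subgroup G) → g * x * g⁻¹ = x := by
  have hp3 : 2 ≤ p - 1 := by
    have := (Fact.out : p.Prime).two_le
    omega
  intro x hx g hg
  refine weak_closure_elt (Cfsg.inducedFunctor Cfsg.kInfLower)
    (induced_isConjugacyFunctor (kInfLower_isChar p)) kInfLower_center_le ?_ ⊤ S le_top S.2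
    (by rw [Subgroup.relIndex_top_right]; exact S.not_dvd_index) x (by rwa [top_inf_eq]) g
    (Subgroup.mem_top g) hg
  intro H T hTH hT hTi hn
  obtain ⟨g, hgT, hgR, hq⟩ := kInfLower_quadratic H T hTH hT hTi hn
  refine ⟨g, hgT, hgR, ?_⟩
  intro U V _ hU
  have h1 : Cfsg.iterCommutator (U.map H.subtype) (Subgroup.zpowers g) 2 ≤ ⊥ := by
    rw [← hq]
    exact Subgroup.commutator_mono (Subgroup.commutator_mono hU le_rfl) le_rfl
  exact (iter_le_of_le hp3 h1).trans bot_le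

end Cfsg.Agent.Lib.Helper13
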