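import Cfsg.Agent.Lib.Helper13.TraceFactor
import Cfsg.Agent.Lib.Helper13.Conj

set_option autoImplicit false

namespace Cfsg.Agent.Lib.Helper13

/-- if the weakly closed elements of `S` are the elements of `S` central in `N₁`, they form a direct
factor of `Z(S)` -/
theorem weakly_closed_direct_factor {G : Type*} [Group G] [Finite G] {p : ℕ} [Fact p.Prime]
    (S : Sylow p G) (N₁ R : Subgroup G) (hSN : (S : Subgroup G) ≤ N₁) (hRS : R ≤ S)
    (hN : N₁ ≤ Subgroup.normalizer (R : Set G))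
    (hZR : (S : Subgroup G) ⊓ Subgroup.centralizer ((S : Subgroup G) : Set G) ≤ R)
    (hwc : ∀ x ∈ (S : Subgroup G) ⊓ Subgroup.centralizer (N₁ : Set G), ∀ g : G,
      g * x * g⁻¹ ∈ (S : Subgroup G) → g * x * g⁻¹ = x) :
    ∃ W K : Subgroup G, (∀ x : G, x ∈ W ↔ (x ∈ (S : Subgroup G) ∧
        ∀ g : G, g * x * g⁻¹ ∈ (S : Subgroup G) → g * x * g⁻¹ = x)) ∧
      K ≤ ((S : Subgroup G) ⊓ Subgroup.centralizer ((S : Subgroup G) : Set G)) ∧ W ⊓ K = ⊥ ∧
      W ⊔ K = ((S : Subgroup G) ⊓ Subgroup.centralizer ((S : Subgroup G) : Set G)) := by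
  have hSi : ¬ p ∣ (S : Subgroup G).relIndex N₁ := by
    intro h
    exact S.not_dvd_index (h.trans (Subgroup.relIndex_dvd_index_of_le hSN))
  obtain ⟨K, h1, h2, h3⟩ := exists_center_complement (S : Subgroup G) N₁ R S.2 hSi hSN hRS hN hZR
  refine ⟨(S : Subgroup G) ⊓ Subgroup.centralizer (N₁ : Set G), K, ?_, h1, h2, h3⟩
  intro x
  constructor
  · intro hx
    exact ⟨hx.1, hwc x hx⟩
  · rintro ⟨hxS, hx⟩
    have hxZ : x ∈ (S : Subgroup G) ⊓ Subgroup.centralizer ((S : Subgroup G) : Set G) := by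
      refine Subgroup.mem_inf.mpr ⟨hxS, ?_⟩
      rw [Subgroup.mem_centralizer_iff]
      intro s hs
      have := hx s (Subgroup.mul_mem _ (Subgroup.mul_mem _ hs hxS) (Subgroup.inv_mem _ hs))
      calc s * x = (s * x * s⁻¹) * s := by group
        _ = x * s := by rw [this]
    refine Subgroup.mem_inf.mpr ⟨hxS, ?_⟩
    rw [Subgroup.mem_centralizer_iff]
    intro n hn
    have h4 : n * x * n⁻¹ ∈ R := (Subgroup.mem_normalizer_iff.mp (hN hn) x).mp (hZR hxZ)
    have := hx n (hRS h4)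
    calc n * x = (n * x * n⁻¹) * n := by group
      _ = x * n := by rw [this]

end Cfsg.Agent.Lib.Helper13
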